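import Mathlib
import Cfsg.Agent.Lib.Helper24.LZ.Defs

set_option autoImplicit false

namespace Cfsg.Agent.Lib.Helper75.LZ

open Cfsg.Agent.Lib.Helper24.LZ

theorem L_iff (p q j : ℕ) (hq : 1 ≤ q) : p ∣ q ^ j - 1 ↔ (q : ZMod p) ^ j = 1 := by
  rw [← ZMod.natCast_eq_zero_iff, Nat.cast_sub (Nat.one_le_pow _ _ hq), Nat.cast_pow,
    Nat.cast_one, sub_eq_zero]

/-- a primitive prime divisor of `q ^ n - 1` is at least `n + 1` -/
theorem L_le (p q n : ℕ) (hp : p.Prime) (hq : 1 ≤ q) (hn : 1 ≤ n) (h1 : p ∣ q ^ n - 1)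
    (h2 : ∀ i : ℕ, 1 ≤ i → i < n → ¬ p ∣ q ^ i - 1) : n + 1 ≤ p := by
  have : Fact p.Prime := ⟨hp⟩
  have e1 : (q : ZMod p) ^ n = 1 := (L_iff p q n hq).1 h1
  have ho : orderOf (q : ZMod p) ∣ n := orderOf_dvd_of_pow_eq_one e1
  have ho0 : 0 < orderOf (q : ZMod p) := Nat.pos_of_dvd_of_pos ho hn
  have hole : orderOf (q : ZMod p) ≤ n := Nat.le_of_dvd hn ho
  have hon : orderOf (q : ZMod p) = n := by
    by_contra hne
    exact h2 _ ho0 (lt_of_le_of_ne hole hne) ((L_iff p q _ hq).2 (pow_orderOf_eq_one _))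
  have hq0 : (q : ZMod p) ≠ 0 := by
    intro hc
    rw [hc, zero_pow (by omega)] at e1
    exact zero_ne_one e1
  have h3 : orderOf (q : ZMod p) ∣ p - 1 :=
    orderOf_dvd_of_pow_eq_one (ZMod.pow_card_sub_one_eq_one hq0)
  rw [hon] at h3
  have h4 := Nat.le_of_dvd (by have := hp.two_le; omega) h3
  omega

/-- [L] -/
theorem exists_prime_of_PP (q n : ℕ) (hq : 2 ≤ q) (hn : 2 ≤ n) (h : PP q n (n + 2)) :
    ∃ p : ℕ, p.Prime ∧ p ∣ q ^ n - 1 ∧ (∀ i : ℕ, 1 ≤ i → i < n → ¬ p ∣ q ^ i - 1) ∧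
      (n + 1 < p ∨ p ^ 2 ∣ q ^ n - 1) := by
  obtain ⟨m, hm1, hm2, hm3⟩ := h
  have key : ∀ p : ℕ, p.Prime → p ∣ m → p ∣ q ^ n - 1 ∧
      (∀ i : ℕ, 1 ≤ i → i < n → ¬ p ∣ q ^ i - 1) ∧ n + 1 ≤ p := by
    intro p hp hpm
    have a1 : p ∣ q ^ n - 1 := hpm.trans hm1
    have a2 : ∀ i : ℕ, 1 ≤ i → i < n → ¬ p ∣ q ^ i - 1 := by
      intro i hi1 hi2 hc
      have h3 := Nat.dvd_gcd hpm hc
      rw [hm2 i hi1 hi2] at h3
      exact hp.one_lt.ne' (Nat.dvd_one.1 h3)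
    exact ⟨a1, a2, L_le p q n hp (by omega) (by omega) a1 a2⟩
  by_cases hbig : ∃ p : ℕ, p.Prime ∧ p ∣ m ∧ n + 1 < p
  · obtain ⟨p, hp, hpm, hlt⟩ := hbig
    obtain ⟨a1, a2, _⟩ := key p hp hpm
    exact ⟨p, hp, a1, a2, Or.inl hlt⟩
  · push Not at hbig
    have huniq : ∀ {d : ℕ}, d.Prime → d ∣ m → d = n + 1 := by
      intro d hd hdm
      have := (key d hd hdm).2.2
      have := hbig d hd hdm
      omega
    have hpow := Nat.eq_prime_pow_of_unique_prime_dvd (by omega : m ≠ 0) huniq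
    obtain ⟨p, hp, hpm⟩ := Nat.exists_prime_and_dvd (by omega : m ≠ 1)
    have hpn : p = n + 1 := huniq hp hpm
    obtain ⟨a1, a2, _⟩ := key p hp hpm
    refine ⟨p, hp, a1, a2, Or.inr ?_⟩
    have hj : 2 ≤ m.primeFactorsList.length := by
      by_contra hc
      have : m.primeFactorsList.length = 0 ∨ m.primeFactorsList.length = 1 := by omega
      rcases this with h0 | h0
      · rw [h0, pow_zero] at hpow; omega
      · rw [h0, pow_one] at hpow; omega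
    rw [hpn]
    refine Dvd.dvd.trans ?_ hm1
    rw [hpow]
    exact pow_dvd_pow _ hj

end Cfsg.Agent.Lib.Helper75.LZ
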