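import Mathlib
import Cfsg.Agent.Lib.Helper24.LZ.Defs

set_option autoImplicit false

namespace Cfsg.Agent.Lib.Helper75.LZ

open Cfsg.Agent.Lib.Helper24.LZ
open Cfsg.Agent.S2904 (natPhi)

theorem LB2B3_arith (r : ℕ) (hr3 : 3 ≤ r) : 9 * 2 ^ (r - 1) ≤ (2 ^ r - 1) ^ 2 := by
  obtain ⟨k, rfl⟩ : ∃ k, r = k + 3 := ⟨r - 3, by omega⟩
  have e1 : k + 3 - 1 = k + 2 := by omega
  rw [e1]
  have hx : 1 ≤ 2 ^ k := Nat.one_le_two_pow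
  have e2 : 2 ^ (k + 3) = 8 * 2 ^ k := by ring
  have e3 : 2 ^ (k + 2) = 4 * 2 ^ k := by ring
  rw [e2, e3]
  generalize 2 ^ k = x at *
  obtain ⟨y, rfl⟩ : ∃ y, x = y + 1 := ⟨x - 1, by omega⟩
  have e4 : 8 * (y + 1) - 1 = 8 * y + 7 := by omega
  rw [e4]
  nlinarith

/-- [LB2B3] -/
theorem lb2_nsq (m r : ℕ) (hr : r.Prime) (hr3 : 3 ≤ r) (hm : ¬ r ∣ m) (hm1 : 1 < m) :
    2 ^ (m * r).totient < natPhi (m * r) 2 ^ 2 := by
  set s := m.totient with hs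
  have h2r : 1 < 2 ^ r := Nat.one_lt_two_pow (by omega)
  have hA := Cfsg.Agent.S2904.lt_natPhi m (2 ^ r) hm1 h2r
  have hB := Cfsg.Agent.S2904.natPhi_expand_of_not_dvd m 2 r hr hm
  have hC := Cfsg.Agent.S2904.natPhi_le m 2 (by norm_num)
  rw [← hs] at hA hC
  have hcop : Nat.Coprime m r := ((Nat.Prime.coprime_iff_not_dvd hr).2 hm).symm
  have htot : (m * r).totient = (r - 1) * s := by
    rw [Nat.totient_mul hcop, Nat.totient_prime hr, mul_comm]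
  rw [htot]
  set N := natPhi (m * r) 2 with hN
  have h1 : (2 ^ r - 1) ^ s < N * 3 ^ s := by
    calc (2 ^ r - 1) ^ s < natPhi m (2 ^ r) := hA
      _ = N * natPhi m 2 := hB
      _ ≤ N * 3 ^ s := Nat.mul_le_mul_left _ hC
  have h2 : ((2 ^ r - 1) ^ s) ^ 2 < (N * 3 ^ s) ^ 2 := Nat.pow_lt_pow_left h1 (by norm_num)
  have h3 : (9 * 2 ^ (r - 1)) ^ s ≤ ((2 ^ r - 1) ^ 2) ^ s :=
    Nat.pow_le_pow_left (LB2B3_arith r hr3) s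
  have h4 : 2 ^ ((r - 1) * s) * 9 ^ s < N ^ 2 * 9 ^ s := by
    calc 2 ^ ((r - 1) * s) * 9 ^ s = (9 * 2 ^ (r - 1)) ^ s := by rw [mul_pow, ← pow_mul, mul_comm]
      _ ≤ ((2 ^ r - 1) ^ 2) ^ s := h3
      _ = ((2 ^ r - 1) ^ s) ^ 2 := by rw [← pow_mul, ← pow_mul, mul_comm]
      _ < (N * 3 ^ s) ^ 2 := h2
      _ = N ^ 2 * 9 ^ s := by
          rw [mul_pow, ← pow_mul, mul_comm s 2, pow_mul]; norm_num
  exact Nat.lt_of_mul_lt_mul_right h4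

end Cfsg.Agent.Lib.Helper75.LZ
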