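import Mathlib
import Cfsg.Agent.Lib.Helper24.LZ.Defs

set_option autoImplicit false

namespace Cfsg.Agent.Lib.Helper75.LZ

open Cfsg.Agent.Lib.Helper24.LZ

/-- [N2] -/
theorem case_two (q : ℕ) (hq : 2 ≤ q) (h1 : ¬ ∃ s t : ℕ, t ≤ 1 ∧ q + 1 = 2 ^ s * 3 ^ t) :
    ∃ p : ℕ, p.Prime ∧ p ∣ q ^ 2 - 1 ∧ (∀ i : ℕ, 1 ≤ i → i < 2 → ¬ p ∣ q ^ i - 1) ∧
      (2 + 1 < p ∨ p ^ 2 ∣ q ^ 2 - 1) := by
  have hfac : q ^ 2 - 1 = (q + 1) * (q - 1) := by
    have := Nat.sq_sub_sq q 1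
    rwa [one_pow] at this
  have hnd : ∀ p, p ∣ q + 1 → 3 ≤ p → ∀ i : ℕ, 1 ≤ i → i < 2 → ¬ p ∣ q ^ i - 1 := by
    intro p hp h3 i hi1 hi2 hc
    have hi : i = 1 := by omega
    rw [hi, pow_one] at hc
    have h2 : p ∣ (q + 1) - (q - 1) := Nat.dvd_sub hp hc
    have e : (q + 1) - (q - 1) = 2 := by omega
    rw [e] at h2
    have := Nat.le_of_dvd (by norm_num) h2
    omega
  by_cases hA : ∃ p : ℕ, p.Prime ∧ p ∣ q + 1 ∧ 5 ≤ p
  · obtain ⟨p, hp, hpq, hp5⟩ := hA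
    exact ⟨p, hp, by rw [hfac]; exact Dvd.dvd.mul_right hpq _, hnd p hpq (by omega),
      Or.inl (by omega)⟩
  · push Not at hA
    obtain ⟨s, u, hu2, hsu⟩ := Nat.exists_eq_pow_mul_and_not_dvd (n := q + 1) (by omega) 2
      (by norm_num)
    have hu0 : u ≠ 0 := by
      rintro rfl
      exact hu2 (dvd_zero 2)
    obtain ⟨t, v, hv3, htv⟩ := Nat.exists_eq_pow_mul_and_not_dvd (n := u) hu0 3 (by norm_num)
    have hv1 : v = 1 := by
      by_contra hv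
      obtain ⟨p, hp, hpv⟩ := Nat.exists_prime_and_dvd hv
      have hpu : p ∣ u := by rw [htv]; exact Dvd.dvd.mul_left hpv _
      have hpq : p ∣ q + 1 := by rw [hsu]; exact Dvd.dvd.mul_left hpu _
      have h5 := hA p hp hpq
      have h2 := hp.two_le
      have : p = 2 ∨ p = 3 ∨ p = 4 := by omega
      rcases this with rfl | rfl | rfl
      · exact hu2 hpu
      · exact hv3 hpv
      · exact absurd hp (by norm_num)
    rw [hv1, mul_one] at htv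
    rw [htv] at hsu
    have ht : 2 ≤ t := by
      by_contra hc
      exact h1 ⟨s, t, by omega, hsu⟩
    have h9 : 3 ^ 2 ∣ q + 1 := by
      rw [hsu]
      exact Dvd.dvd.mul_left (pow_dvd_pow 3 ht) _
    have h3 : 3 ∣ q + 1 := (dvd_pow_self 3 (by norm_num)).trans h9
    exact ⟨3, Nat.prime_three, by rw [hfac]; exact Dvd.dvd.mul_right h3 _, hnd 3 h3 le_rfl,
      Or.inr (by rw [hfac]; exact Dvd.dvd.mul_right h9 _)⟩

end Cfsg.Agent.Lib.Helper75.LZ
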